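import Mathlib

/-!
Certificates for explicit permutation groups, checked by kernel evaluation.

An element table `ap` (index, point ↦ point) together with right multiplication tables for a
list of generators determines the subgroup of `Equiv.Perm (Fin n)` they generate: its elements
correspond to the indices below `N`, and an order table gives the order of each of them.
Solvability is certified by a polycyclic sequence with conjugation words, non-solvability by
writing each generator as a commutator of generators.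
-/

namespace Cfsg.Agent.Lib.OrderType.Basic

open scoped commutatorElement

/-! ### Bounded loops on the naturals -/

/-- `f i = true` for all `i < k`. -/
def allBelow : ℕ → (ℕ → Bool) → Bool
  | 0, _ => true
  | k + 1, f => f k && allBelow k f

theorem allBelow_iff {k : ℕ} {f : ℕ → Bool} :
    allBelow k f = true ↔ ∀ i, i < k → f i = true := by
  induction k with
  | zero => simp [allBelow]
  | succ k ih =>
    simp only [allBelow, Bool.and_eq_true, ih]
    constructor
    · rintro ⟨h1, h2⟩ i hi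
      rcases Nat.lt_succ_iff_lt_or_eq.mp hi with h | rfl
      · exact h2 i h
      · exact h1
    · intro h
      exact ⟨h k (Nat.lt_succ_self k), fun i hi => h i (Nat.lt_succ_of_lt hi)⟩

/-- The number of `i < k` with `f i = true`. -/
def countBelow : ℕ → (ℕ → Bool) → ℕ
  | 0, _ => 0
  | k + 1, f => Nat.add (countBelow k f) (cond (f k) 1 0)

theorem countBelow_eq_card (k : ℕ) (f : ℕ → Bool) :
    countBelow k f = ((Finset.range k).filter fun i => f i = true).card := by
  induction k with
  | zero => simp [countBelow]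
  | succ k ih =>
    rw [countBelow, ih, Finset.range_add_one, Finset.filter_insert]
    by_cases h : f k = true
    · simp [h, Nat.add_eq]
    · simp [h, Nat.add_eq]

theorem countBelow_congr {k : ℕ} {f g : ℕ → Bool} (h : ∀ i, i < k → f i = g i) :
    countBelow k f = countBelow k g := by
  induction k with
  | zero => rfl
  | succ k ih =>
    rw [countBelow, countBelow, ih (fun i hi => h i (Nat.lt_succ_of_lt hi)),
      h k (Nat.lt_succ_self k)]

/-! ### The certificate -/

/-- A generator: the index of the element, the index of its inverse, the table of right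
multiplication by it, and a word for it in the polycyclic sequence. -/
structure Gen where
  g : ℕ
  g' : ℕ
  tab : ℕ → ℕ
  word : List ℕ

/-- A member of a polycyclic sequence, with words for its conjugates of the later members. -/
structure PCItem where
  g : ℕ
  g' : ℕ
  ws : List (List ℕ)

/-- Certificate data for a permutation group of degree `n` and order `N`. -/
structure Cert where
  n : ℕ
  N : ℕ
  ap : ℕ → ℕ → ℕ
  e : ℕ
  gens : List Gen
  pp : ℕ → ℕ
  fuel : ℕ
  B : List ℕ
  ord : ℕ → ℕ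
  pc : List PCItem

namespace Cert

variable (C : Cert)

/-- `g` and `g'` index mutually inverse permutations of `{0, …, n-1}`. -/
def pairOk (g g' : ℕ) : Bool :=
  allBelow C.n fun j =>
    Nat.ble (C.ap g j + 1) C.n && Nat.ble (C.ap g' j + 1) C.n &&
      Nat.beq (C.ap g' (C.ap g j)) j && Nat.beq (C.ap g (C.ap g' j)) j

theorem pairOk_spec {g g' : ℕ} (h : C.pairOk g g' = true) (j : ℕ) (hj : j < C.n) :
    C.ap g j < C.n ∧ C.ap g' j < C.n ∧ C.ap g' (C.ap g j) = j ∧ C.ap g (C.ap g' j) = j := by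
  have := allBelow_iff.mp h j hj
  simp only [Bool.and_eq_true, Nat.ble_eq, Nat.beq_eq] at this
  obtain ⟨⟨⟨h1, h2⟩, h3⟩, h4⟩ := this
  exact ⟨h1, h2, h3, h4⟩

/-- The permutation with table `ap g`, if `pairOk g g'`. -/
def rawPerm (g g' : ℕ) : Equiv.Perm (Fin C.n) :=
  if h : C.pairOk g g' = true then
    { toFun := fun j => ⟨C.ap g j, (C.pairOk_spec h j j.2).1⟩
      invFun := fun j => ⟨C.ap g' j, (C.pairOk_spec h j j.2).2.1⟩
      left_inv := fun j => Fin.ext (C.pairOk_spec h j j.2).2.2.1
      right_inv := fun j => Fin.ext (C.pairOk_spec h j j.2).2.2.2 }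
  else 1

/-- `σ` acts as the table row `i`. -/
def Sem (σ : Equiv.Perm (Fin C.n)) (i : ℕ) : Prop :=
  ∀ j : Fin C.n, ((σ j : Fin C.n) : ℕ) = C.ap i j

theorem sem_rawPerm {g g' : ℕ} (h : C.pairOk g g' = true) : C.Sem (C.rawPerm g g') g := by
  intro j
  simp only [rawPerm, h, dite_true]
  rfl

theorem sem_rawPerm_inv {g g' : ℕ} (h : C.pairOk g g' = true) :
    C.Sem (C.rawPerm g g')⁻¹ g' := by
  intro j
  simp only [rawPerm, h, dite_true]
  rfl

variable {C} in
theorem Sem.mul {x y : Equiv.Perm (Fin C.n)} {a b c : ℕ} (hx : C.Sem x a) (hy : C.Sem y b)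
    (h : ∀ j, j < C.n → C.ap c j = C.ap a (C.ap b j)) : C.Sem (x * y) c := by
  intro j
  rw [h j j.2, ← hy j, ← hx (y j)]
  rfl

variable {C} in
theorem Sem.unique {x y : Equiv.Perm (Fin C.n)} {a : ℕ} (hx : C.Sem x a) (hy : C.Sem y a) :
    x = y := by
  ext j
  rw [hx j, hy j]

/-- The subgroup generated by the generators. -/
def H : Subgroup (Equiv.Perm (Fin C.n)) :=
  Subgroup.closure {σ | ∃ γ ∈ C.gens, σ = C.rawPerm γ.g γ.g'}

/-- The key of a table row, read off on the base. -/
def keyOf (f : ℕ → ℕ) (B : List ℕ) : ℕ :=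
  B.foldl (fun acc b => Nat.add (Nat.mul acc 256) (f b)) 0

/-- Following the parents from `i` reaches the identity. -/
def chain : ℕ → ℕ → Bool
  | 0, i => Nat.beq i C.e
  | f + 1, i =>
    Nat.beq i C.e ||
      (Nat.ble (C.pp i + 1) C.N && C.gens.any (fun γ => Nat.beq (γ.tab (C.pp i)) i) &&
        chain f (C.pp i))

/-- Powers of a table row applied to a point. -/
def iter (i : ℕ) : ℕ → ℕ → ℕ
  | 0, j => j
  | d + 1, j => C.ap i (iter i d j)

/-- The `d`-th power of row `i` fixes the base. -/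
def good (i d : ℕ) : Bool :=
  C.B.all fun b => Nat.beq (C.iter i d b) b

/-- `ord i` divides 84 and is the order of row `i`. -/
def ordOk (i : ℕ) : Bool :=
  Nat.beq (Nat.mod 84 (C.ord i)) 0 && Nat.ble 1 (C.ord i) && C.good i (C.ord i) &&
    [2, 3, 7].all fun p =>
      !(Nat.beq (Nat.mod (C.ord i) p) 0) || !(C.good i (Nat.div (C.ord i) p))

/-- All checks on the table. -/
def check : Bool :=
  (Nat.ble (C.e + 1) C.N && allBelow C.n fun j => Nat.beq (C.ap C.e j) j) &&
  (C.gens.all fun γ => C.pairOk γ.g γ.g') &&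
  (C.gens.all fun γ => allBelow C.N fun i =>
    Nat.ble (γ.tab i + 1) C.N &&
      allBelow C.n fun j => Nat.beq (C.ap (γ.tab i) j) (C.ap i (C.ap γ.g j))) &&
  (allBelow (C.N - 1) fun i =>
    Nat.ble (keyOf (C.ap i) C.B + 1) (keyOf (C.ap (i + 1)) C.B)) &&
  (C.B.all fun b => Nat.ble (b + 1) C.n) &&
  (allBelow C.N fun i => C.chain C.fuel i) &&
  (allBelow C.N fun i => C.ordOk i)

/-- The unpacked form of `check`. -/
structure Valid : Prop where
  he : C.e < C.N
  ape : ∀ j, j < C.n → C.ap C.e j = j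
  pair : ∀ γ ∈ C.gens, C.pairOk γ.g γ.g' = true
  tabLt : ∀ γ ∈ C.gens, ∀ i, i < C.N → γ.tab i < C.N
  tabAp : ∀ γ ∈ C.gens, ∀ i, i < C.N → ∀ j, j < C.n → C.ap (γ.tab i) j = C.ap i (C.ap γ.g j)
  key : ∀ i, i < C.N - 1 → keyOf (C.ap i) C.B < keyOf (C.ap (i + 1)) C.B
  base : ∀ b ∈ C.B, b < C.n
  chn : ∀ i, i < C.N → C.chain C.fuel i = true
  ordk : ∀ i, i < C.N → C.ordOk i = true

variable {C}

theorem valid_of_check (h : C.check = true) : C.Valid := by
  simp only [check, Bool.and_eq_true, List.all_eq_true, allBelow_iff, Nat.ble_eq, Nat.beq_eq] at h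
  obtain ⟨⟨⟨⟨⟨⟨⟨h1, h2⟩, h3⟩, h4⟩, h5⟩, h6⟩, h7⟩, h8⟩ := h
  refine ⟨h1, h2, h3, fun γ hγ i hi => (h4 γ hγ i hi).1, fun γ hγ i hi => (h4 γ hγ i hi).2,
    h5, h6, h7, h8⟩

theorem sem_one (hC : C.Valid) : C.Sem 1 C.e := by
  intro j
  rw [hC.ape j j.2]
  rfl

theorem sem_gen_mul (hC : C.Valid) {γ : Gen} (hγ : γ ∈ C.gens) {x : Equiv.Perm (Fin C.n)} {i : ℕ}
    (hi : i < C.N) (hx : C.Sem x i) : C.Sem (x * C.rawPerm γ.g γ.g') (γ.tab i) :=
  hx.mul (C.sem_rawPerm (hC.pair γ hγ)) (hC.tabAp γ hγ i hi)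

/-- Every member of the subgroup has an index. -/
theorem exists_index (hC : C.Valid) {x : Equiv.Perm (Fin C.n)} (hx : x ∈ C.H) :
    ∃ i, i < C.N ∧ C.Sem x i := by
  have step : ∀ (y : Equiv.Perm (Fin C.n)), (∃ γ ∈ C.gens, y = C.rawPerm γ.g γ.g') →
      ∀ (x : Equiv.Perm (Fin C.n)), (∃ i, i < C.N ∧ C.Sem x i) →
        ∃ i, i < C.N ∧ C.Sem (x * y) i := by
    rintro y ⟨γ, hγ, rfl⟩ x ⟨i, hi, hs⟩
    exact ⟨γ.tab i, hC.tabLt γ hγ i hi, sem_gen_mul hC hγ hi hs⟩
  have step' : ∀ (y : Equiv.Perm (Fin C.n)), (∃ γ ∈ C.gens, y = C.rawPerm γ.g γ.g') →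
      ∀ (k : ℕ) (x : Equiv.Perm (Fin C.n)), (∃ i, i < C.N ∧ C.Sem x i) →
        ∃ i, i < C.N ∧ C.Sem (x * y ^ k) i := by
    intro y hy k
    induction k with
    | zero => intro x hx; simpa using hx
    | succ k ih =>
      intro x hx
      rw [pow_succ, ← mul_assoc]
      exact step y hy _ (ih x hx)
  induction hx using Subgroup.closure_induction_right with
  | one => exact ⟨C.e, hC.he, sem_one hC⟩
  | mul_right x _ y hy ih => exact step y hy x ih
  | mul_inv_cancel x _ y hy ih =>
    have h1 : y⁻¹ = y ^ (orderOf y - 1) := by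
      rw [eq_comm, eq_inv_iff_mul_eq_one, ← pow_succ, Nat.sub_add_cancel (orderOf_pos y),
        pow_orderOf_eq_one]
    rw [h1]
    exact step' y hy _ x ih

/-- Every index comes from a member of the subgroup. -/
theorem exists_elt_of_chain (hC : C.Valid) : ∀ (f i : ℕ), C.chain f i = true →
    ∃ x, x ∈ C.H ∧ C.Sem x i := by
  intro f
  induction f with
  | zero =>
    intro i h
    simp only [chain, Nat.beq_eq] at h
    subst h
    exact ⟨1, one_mem _, sem_one hC⟩
  | succ f ih =>
    intro i h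
    simp only [chain, Bool.or_eq_true, Bool.and_eq_true, Nat.beq_eq, Nat.ble_eq,
      List.any_eq_true] at h
    rcases h with h | ⟨⟨h1, γ, hγ, h2⟩, h3⟩
    · subst h
      exact ⟨1, one_mem _, sem_one hC⟩
    · obtain ⟨x, hx, hs⟩ := ih _ h3
      refine ⟨x * C.rawPerm γ.g γ.g', mul_mem hx (Subgroup.subset_closure ⟨γ, hγ, rfl⟩), ?_⟩
      rw [← h2]
      exact sem_gen_mul hC hγ h1 hs

theorem exists_elt (hC : C.Valid) {i : ℕ} (hi : i < C.N) : ∃ x, x ∈ C.H ∧ C.Sem x i :=
  exists_elt_of_chain hC _ _ (hC.chn i hi)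

theorem keyOf_congr {f g : ℕ → ℕ} {B : List ℕ} (h : ∀ b ∈ B, f b = g b) :
    keyOf f B = keyOf g B := by
  unfold keyOf
  exact List.foldl_ext _ _ _ (fun a b hb => by rw [h b hb])

theorem key_lt (hC : C.Valid) {i k : ℕ} (hik : i < k) (hk : k < C.N) :
    keyOf (C.ap i) C.B < keyOf (C.ap k) C.B := by
  induction k, hik using Nat.le_induction with
  | base => exact hC.key i (by omega)
  | succ k hk' ih => exact lt_trans (ih (by omega)) (hC.key k (by omega))

theorem index_unique_of_base (hC : C.Valid) {i k : ℕ} (hi : i < C.N) (hk : k < C.N)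
    (h : ∀ b ∈ C.B, C.ap i b = C.ap k b) : i = k := by
  have h1 : keyOf (C.ap i) C.B = keyOf (C.ap k) C.B := keyOf_congr h
  rcases lt_trichotomy i k with h2 | h2 | h2
  · exact absurd h1 (ne_of_lt (key_lt hC h2 hk))
  · exact h2
  · exact absurd h1.symm (ne_of_lt (key_lt hC h2 hi))

theorem index_unique (hC : C.Valid) {x : Equiv.Perm (Fin C.n)} {i k : ℕ} (hi : i < C.N)
    (hk : k < C.N) (h1 : C.Sem x i) (h2 : C.Sem x k) : i = k :=
  index_unique_of_base hC hi hk fun b hb => by
    have hb' := hC.base b hb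
    rw [← h1 ⟨b, hb'⟩, h2 ⟨b, hb'⟩]

theorem pow_apply {x : Equiv.Perm (Fin C.n)} {i : ℕ} (hs : C.Sem x i) (d : ℕ) (j : Fin C.n) :
    (((x ^ d) j : Fin C.n) : ℕ) = C.iter i d j := by
  induction d with
  | zero => rfl
  | succ d ih =>
    rw [pow_succ', Equiv.Perm.mul_apply, hs, ih]
    rfl

theorem pow_eq_one_iff (hC : C.Valid) {x : Equiv.Perm (Fin C.n)} (hx : x ∈ C.H) {i : ℕ}
    (hs : C.Sem x i) (d : ℕ) : x ^ d = 1 ↔ C.good i d = true := by
  simp only [good, List.all_eq_true, Nat.beq_eq]
  constructor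
  · intro h b hb
    have hb' := hC.base b hb
    have := pow_apply hs d ⟨b, hb'⟩
    rw [h] at this
    exact this.symm
  · intro h
    obtain ⟨t, ht, hst⟩ := exists_index hC (pow_mem hx d)
    have h1 : t = C.e := index_unique_of_base hC ht hC.he fun b hb => by
      have hb' := hC.base b hb
      rw [← hst ⟨b, hb'⟩, pow_apply hs d ⟨b, hb'⟩, hC.ape b hb']
      exact h b hb
    rw [h1] at hst
    exact hst.unique (sem_one hC)

theorem prime_dvd_84 {p : ℕ} (hp : p.Prime) (h : p ∣ 84) : p = 2 ∨ p = 3 ∨ p = 7 := by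
  have h84 : (84 : ℕ) = 2 * (2 * (3 * 7)) := by norm_num
  rw [h84] at h
  rcases (Nat.Prime.dvd_mul hp).1 h with h | h
  · exact Or.inl ((Nat.prime_dvd_prime_iff_eq hp Nat.prime_two).1 h)
  rcases (Nat.Prime.dvd_mul hp).1 h with h | h
  · exact Or.inl ((Nat.prime_dvd_prime_iff_eq hp Nat.prime_two).1 h)
  rcases (Nat.Prime.dvd_mul hp).1 h with h | h
  · exact Or.inr (Or.inl ((Nat.prime_dvd_prime_iff_eq hp Nat.prime_three).1 h))
  · exact Or.inr (Or.inr ((Nat.prime_dvd_prime_iff_eq hp (by norm_num)).1 h))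

theorem ordOk_spec (hC : C.Valid) {i : ℕ} (hi : i < C.N) :
    C.ord i ∣ 84 ∧ 0 < C.ord i ∧ C.good i (C.ord i) = true ∧
      ∀ p ∈ [2, 3, 7], p ∣ C.ord i → C.good i (C.ord i / p) = false := by
  have h := hC.ordk i hi
  simp only [ordOk, Bool.and_eq_true, List.all_eq_true, Bool.or_eq_true, Nat.ble_eq, Nat.beq_eq,
    Bool.not_eq_true'] at h
  obtain ⟨⟨⟨h1, h2⟩, h3⟩, h4⟩ := h
  refine ⟨Nat.dvd_of_mod_eq_zero h1, h2, h3, fun p hp hd => ?_⟩
  rcases h4 p hp with h5 | h5
  · have h6 : Nat.beq (C.ord i % p) 0 = true := by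
      rw [Nat.beq_eq]
      exact Nat.mod_eq_zero_of_dvd hd
    have h7 : Nat.beq (Nat.mod (C.ord i) p) 0 = true := h6
    rw [h7] at h5
    exact absurd h5 (by decide)
  · exact h5

/-- The order of an element is the entry in the order table. -/
theorem orderOf_eq (hC : C.Valid) {x : Equiv.Perm (Fin C.n)} (hx : x ∈ C.H) {i : ℕ}
    (hi : i < C.N) (hs : C.Sem x i) : orderOf x = C.ord i := by
  obtain ⟨h1, h2, h3, h4⟩ := ordOk_spec hC hi
  refine orderOf_eq_of_pow_and_pow_div_prime h2 ((pow_eq_one_iff hC hx hs _).2 h3) ?_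
  intro p hp hd h5
  have hp' : p ∈ [2, 3, 7] := by
    have := prime_dvd_84 hp (dvd_trans hd h1)
    simpa using this
  have h6 := (pow_eq_one_iff hC hx hs _).1 h5
  rw [h4 p hp' hd] at h6
  exact absurd h6 (by decide)

/-- Number of solutions of `x ^ d = 1`, computed from the order table. -/
def F (C : Cert) (d : ℕ) : ℕ :=
  countBelow C.N fun i => Nat.beq (Nat.mod d (C.ord i)) 0

theorem F_eq_card (C : Cert) (d : ℕ) :
    C.F d = ((Finset.range C.N).filter fun i => C.ord i ∣ d).card := by
  rw [F, countBelow_eq_card]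
  congr 1
  apply Finset.filter_congr
  intro i _
  rw [Nat.beq_eq]
  exact (Nat.dvd_iff_mod_eq_zero).symm

theorem card_pow_eq_one (hC : C.Valid) (d : ℕ) :
    Nat.card {x : C.H // x ^ d = 1} = C.F d := by
  classical
  rw [F_eq_card]
  have hex : ∀ x : C.H, ∃ i, i < C.N ∧ C.Sem x.1 i := fun x => exists_index hC x.2
  choose idx hidx hsem using hex
  have key : ∀ x : C.H, x ^ d = 1 ↔ C.ord (idx x) ∣ d := by
    intro x
    rw [← orderOf_dvd_iff_pow_eq_one, ← orderOf_eq hC x.2 (hidx x) (hsem x), Subgroup.orderOf_coe]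
  let f : {x : C.H // x ^ d = 1} →
      {i // i ∈ (Finset.range C.N).filter fun i => C.ord i ∣ d} := fun x =>
    ⟨idx x.1, Finset.mem_filter.2 ⟨Finset.mem_range.2 (hidx x.1), (key x.1).1 x.2⟩⟩
  have hf : Function.Bijective f := by
    constructor
    · rintro ⟨x, hx⟩ ⟨y, hy⟩ hxy
      have h1 : idx x = idx y := congrArg Subtype.val hxy
      apply Subtype.ext
      apply Subtype.ext
      have h2 := hsem y
      rw [← h1] at h2
      exact (hsem x).unique h2
    · rintro ⟨i, hi⟩
      obtain ⟨h1, h2⟩ := Finset.mem_filter.1 hi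
      have h1' := Finset.mem_range.1 h1
      obtain ⟨x, hx, hs⟩ := exists_elt hC h1'
      have h3 : idx ⟨x, hx⟩ = i := index_unique hC (hidx _) h1' (hsem _) hs
      refine ⟨⟨⟨x, hx⟩, (key _).2 (by rw [h3]; exact h2)⟩, Subtype.ext h3⟩
  rw [Nat.card_eq_of_bijective f hf, Nat.card_eq_fintype_card, Fintype.card_coe]

theorem F_gcd (hC : C.Valid) (d : ℕ) : C.F d = C.F (Nat.gcd d 84) := by
  rw [F_eq_card, F_eq_card]
  congr 1
  apply Finset.filter_congr
  intro i hi
  have h1 := (ordOk_spec hC (Finset.mem_range.1 hi)).1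
  exact ⟨fun h => Nat.dvd_gcd h h1, fun h => dvd_trans h (Nat.gcd_dvd_left _ _)⟩

theorem card_H (hC : C.Valid) : Nat.card C.H = C.N := by
  have h1 := card_pow_eq_one hC 84
  rw [F_eq_card, Finset.filter_true_of_mem, Finset.card_range] at h1
  · rw [← h1]
    apply Nat.card_congr
    exact (Equiv.subtypeUnivEquiv (fun x => by
      obtain ⟨i, hi, hs⟩ := exists_index hC x.2
      have : orderOf x ∣ 84 := by
        rw [← Subgroup.orderOf_coe, orderOf_eq hC x.2 hi hs]
        exact (ordOk_spec hC hi).1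
      exact orderOf_dvd_iff_pow_eq_one.1 this)).symm
  · intro i hi
    exact (ordOk_spec hC (Finset.mem_range.1 hi)).1

/-! ### Non-solvability from commutators of generators -/

/-- Every generator is a commutator of two generators. -/
def chkPerfect (C : Cert) : Bool :=
  C.gens.all fun γ => C.gens.any fun u => C.gens.any fun v =>
    allBelow C.n fun j => Nat.beq (C.ap γ.g j) (C.ap u.g (C.ap v.g (C.ap u.g' (C.ap v.g' j))))

theorem not_solvable (hC : C.Valid) (hP : C.chkPerfect = true) (hN : 2 ≤ C.N) :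
    ¬ Group.IsSolvable C.H := by
  intro hS
  have hle : C.H ≤ ⁅C.H, C.H⁆ := by
    rw [H, Subgroup.closure_le]
    rintro σ ⟨γ, hγ, rfl⟩
    simp only [chkPerfect, List.all_eq_true, List.any_eq_true] at hP
    obtain ⟨u, hu, v, hv, h⟩ := hP γ hγ
    rw [allBelow_iff] at h
    have hum : C.rawPerm u.g u.g' ∈ C.H := Subgroup.subset_closure ⟨u, hu, rfl⟩
    have hvm : C.rawPerm v.g v.g' ∈ C.H := Subgroup.subset_closure ⟨v, hv, rfl⟩
    have hE : C.rawPerm γ.g γ.g' = ⁅C.rawPerm u.g u.g', C.rawPerm v.g v.g'⁆ := by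
      apply Cert.Sem.unique (C.sem_rawPerm (hC.pair γ hγ))
      rw [commutatorElement_def]
      have s1 := C.sem_rawPerm (hC.pair u hu)
      have s2 := C.sem_rawPerm (hC.pair v hv)
      have s3 := C.sem_rawPerm_inv (hC.pair u hu)
      have s4 := C.sem_rawPerm_inv (hC.pair v hv)
      intro j
      have h1 := h j j.2
      rw [Nat.beq_eq] at h1
      rw [h1, Equiv.Perm.mul_apply, Equiv.Perm.mul_apply, Equiv.Perm.mul_apply, s1, s2, s3, s4]
    rw [hE]
    exact Subgroup.commutator_mem_commutator hum hvm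
  haveI : Nontrivial C.H := by
    apply Finite.one_lt_card_iff_nontrivial.1
    rw [card_H hC]
    omega
  have h1 := Group.IsSolvable.commutator_lt_top_of_nontrivial C.H
  have h2 := Subgroup.map_subtype_commutator C.H
  apply ne_of_lt h1
  rw [eq_top_iff]
  intro y _
  have h3 := hle y.2
  rw [← h2] at h3
  obtain ⟨z, hz, hzy⟩ := h3
  have : z = y := Subtype.ext hzy
  exact this ▸ hz

/-! ### Solvability from a polycyclic sequence -/

/-- The product of a word, as a function on points. -/
def evalW (C : Cert) : List ℕ → ℕ → ℕ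
  | [], j => j
  | g :: w, j => C.ap g (evalW C w j)

/-- The permutations of a list of `PCItem`. -/
def pcSet (C : Cert) (L : List PCItem) : Set (Equiv.Perm (Fin C.n)) :=
  {σ | ∃ t ∈ L, σ = C.rawPerm t.g t.g'}

/-- All letters of `w` are members of `L`. -/
def wordIn (L : List PCItem) (w : List ℕ) : Bool :=
  w.all fun g => L.any fun v => Nat.beq v.g g

/-- Every member of the list has a conjugation word. -/
def conjChk (C : Cert) (L₀ : List PCItem) (t : PCItem) : List PCItem → List (List ℕ) → Bool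
  | [], _ => true
  | _ :: _, [] => false
  | u :: us, w :: ws =>
    wordIn L₀ w &&
      (allBelow C.n fun j => Nat.beq (C.ap t.g (C.ap u.g (C.ap t.g' j))) (C.evalW w j)) &&
      conjChk C L₀ t us ws

/-- The polycyclic sequence condition. -/
def pcOk (C : Cert) : List PCItem → Bool
  | [] => true
  | t :: L => C.pairOk t.g t.g' && conjChk C L t L t.ws && pcOk C L

theorem conjChk_spec (C : Cert) {L₀ : List PCItem} {t : PCItem} :
    ∀ {L : List PCItem} {ws : List (List ℕ)}, conjChk C L₀ t L ws = true → ∀ u ∈ L,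
      ∃ w, wordIn L₀ w = true ∧
        ∀ j, j < C.n → C.ap t.g (C.ap u.g (C.ap t.g' j)) = C.evalW w j := by
  intro L
  induction L with
  | nil => intro ws _ u hu; simp at hu
  | cons a L ih =>
    intro ws h u hu
    cases ws with
    | nil => simp [conjChk] at h
    | cons w ws =>
      simp only [conjChk, Bool.and_eq_true, allBelow_iff, Nat.beq_eq] at h
      obtain ⟨⟨h1, h2⟩, h3⟩ := h
      rcases List.mem_cons.1 hu with rfl | hu
      · exact ⟨w, h1, h2⟩
      · exact ih h3 u hu

theorem pcOk_pair (C : Cert) : ∀ {L : List PCItem}, pcOk C L = true → ∀ t ∈ L,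
    C.pairOk t.g t.g' = true := by
  intro L
  induction L with
  | nil => intro _ t ht; simp at ht
  | cons a L ih =>
    intro h t ht
    simp only [pcOk, Bool.and_eq_true] at h
    rcases List.mem_cons.1 ht with rfl | ht
    · exact h.1.1
    · exact ih h.2 t ht

/-- A word in a list of `PCItem` evaluates a member of the subgroup they generate. -/
theorem word_mem (C : Cert) {L : List PCItem} (hL : ∀ t ∈ L, C.pairOk t.g t.g' = true) :
    ∀ {w : List ℕ}, wordIn L w = true →
      ∃ σ ∈ Subgroup.closure (pcSet C L), ∀ j : Fin C.n, ((σ j : Fin C.n) : ℕ) = C.evalW w j := by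
  intro w
  induction w with
  | nil =>
    intro _
    exact ⟨1, one_mem _, fun j => rfl⟩
  | cons g w ih =>
    intro h
    simp only [wordIn, List.all_cons, Bool.and_eq_true, List.any_eq_true, Nat.beq_eq] at h
    obtain ⟨⟨t, ht, rfl⟩, h2⟩ := h
    obtain ⟨σ, hσ, hs⟩ := ih h2
    refine ⟨C.rawPerm t.g t.g' * σ, mul_mem (Subgroup.subset_closure ⟨t, ht, rfl⟩) hσ, fun j => ?_⟩
    rw [Equiv.Perm.mul_apply, C.sem_rawPerm (hL t ht), hs j]
    rfl

/-- One step up a polycyclic sequence. -/
theorem solvable_step {Γ : Type*} [Group Γ] [Finite Γ] (τ : Γ) (S : Set Γ)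
    (hconj : ∀ u ∈ S, τ * u * τ⁻¹ ∈ Subgroup.closure S)
    (hS : Group.IsSolvable (Subgroup.closure S)) :
    Group.IsSolvable (Subgroup.closure (insert τ S)) := by
  set K := Subgroup.closure S with hK
  set A := Subgroup.closure (insert τ S) with hA
  have hKA : K ≤ A := Subgroup.closure_mono (Set.subset_insert _ _)
  have hτA : τ ∈ A := Subgroup.subset_closure (Set.mem_insert _ _)
  have h1 : ∀ x ∈ K, τ * x * τ⁻¹ ∈ K := by
    intro x hx
    induction hx using Subgroup.closure_induction with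
    | mem u hu => exact hconj u hu
    | one => simp [one_mem]
    | mul a b _ _ ha hb =>
      have : τ * (a * b) * τ⁻¹ = (τ * a * τ⁻¹) * (τ * b * τ⁻¹) := by group
      rw [this]
      exact mul_mem ha hb
    | inv a _ ha =>
      have : τ * a⁻¹ * τ⁻¹ = (τ * a * τ⁻¹)⁻¹ := by group
      rw [this]
      exact inv_mem ha
  have h2 : ∀ k : ℕ, ∀ x ∈ K, τ ^ k * x * (τ ^ k)⁻¹ ∈ K := by
    intro k
    induction k with
    | zero => intro x hx; simpa using hx
    | succ k ih =>
      intro x hx
      have : τ ^ (k + 1) * x * (τ ^ (k + 1))⁻¹ = τ ^ k * (τ * x * τ⁻¹) * (τ ^ k)⁻¹ := by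
        rw [pow_succ]; group
      rw [this]
      exact ih _ (h1 x hx)
  have h3 : ∀ x ∈ K, τ⁻¹ * x * τ ∈ K := by
    intro x hx
    have hi : τ⁻¹ = τ ^ (orderOf τ - 1) := by
      rw [eq_comm, eq_inv_iff_mul_eq_one, ← pow_succ, Nat.sub_add_cancel (orderOf_pos τ),
        pow_orderOf_eq_one]
    have := h2 (orderOf τ - 1) x hx
    rw [← hi, inv_inv] at this
    exact this
  have hnorm : A ≤ Subgroup.normalizer (K : Set Γ) := by
    rw [hA, Subgroup.closure_le]
    rintro y (rfl | hy)
    · rw [SetLike.mem_coe, Subgroup.mem_normalizer_iff]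
      intro h
      constructor
      · exact h1 h
      · intro hh
        have := h3 _ hh
        have e : y⁻¹ * (y * h * y⁻¹) * y = h := by group
        rwa [e] at this
    · exact Subgroup.le_normalizer (Subgroup.subset_closure hy)
  haveI hnormal : (K.subgroupOf A).Normal :=
    (Subgroup.normal_subgroupOf_iff_le_normalizer hKA).2 hnorm
  let q : A ⧸ K.subgroupOf A := QuotientGroup.mk ⟨τ, hτA⟩
  have hq : ∀ y : A ⧸ K.subgroupOf A, y ∈ Subgroup.zpowers q := by
    intro y
    induction y using QuotientGroup.induction_on with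
    | H a =>
      obtain ⟨a, ha⟩ := a
      induction ha using Subgroup.closure_induction with
      | mem x hx =>
        rcases hx with rfl | hx
        · exact Subgroup.mem_zpowers _
        · have : (QuotientGroup.mk ⟨x, Subgroup.subset_closure (Set.mem_insert_of_mem _ hx)⟩ :
              A ⧸ K.subgroupOf A) = 1 := by
            rw [QuotientGroup.eq_one_iff]
            exact Subgroup.subset_closure hx
          rw [this]
          exact one_mem _
      | one => exact one_mem _
      | mul a b ha hb iha ihb => exact mul_mem iha ihb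
      | inv a ha iha => exact inv_mem iha
  haveI hQ : Group.IsSolvable (A ⧸ K.subgroupOf A) := by
    apply Group.isSolvable_of_comm
    intro a b
    obtain ⟨m, rfl⟩ := Subgroup.mem_zpowers_iff.1 (hq a)
    obtain ⟨n, rfl⟩ := Subgroup.mem_zpowers_iff.1 (hq b)
    rw [← zpow_add, ← zpow_add, add_comm]
  haveI hK' : Group.IsSolvable (K.subgroupOf A) := by
    have e : K.subgroupOf A ≃* K := Subgroup.subgroupOfEquivOfLe hKA
    exact Group.isSolvable_of_isSolvable_injective (f := e.toMonoidHom) e.injective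
  exact Group.isSolvable_of_ker_le_range (K.subgroupOf A).subtype
    (QuotientGroup.mk' (K.subgroupOf A)) (by rw [QuotientGroup.ker_mk', Subgroup.range_subtype])

theorem solvable_pc (C : Cert) : ∀ {L : List PCItem}, pcOk C L = true →
    Group.IsSolvable (Subgroup.closure (pcSet C L)) := by
  intro L
  induction L with
  | nil =>
    intro _
    have : pcSet C [] = ∅ := by ext σ; simp [pcSet]
    rw [this, Subgroup.closure_empty]
    exact Group.isSolvable_of_comm fun a b => Subsingleton.elim _ _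
  | cons t L ih =>
    intro h
    have hall := pcOk_pair C h
    simp only [pcOk, Bool.and_eq_true] at h
    obtain ⟨⟨h1, h2⟩, h3⟩ := h
    have hset : pcSet C (t :: L) = insert (C.rawPerm t.g t.g') (pcSet C L) := by
      ext σ
      simp [pcSet]
    rw [hset]
    apply solvable_step _ _ _ (ih h3)
    rintro σ ⟨u, hu, rfl⟩
    obtain ⟨w, hw, he⟩ := conjChk_spec C h2 u hu
    obtain ⟨σ', hσ', hs⟩ := word_mem C (pcOk_pair C h3) hw
    convert hσ' using 1
    ext j
    rw [hs j, ← he j j.2]
    simp only [Equiv.Perm.mul_apply]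
    rw [C.sem_rawPerm h1, C.sem_rawPerm (pcOk_pair C h3 u hu), C.sem_rawPerm_inv h1]

/-- Solvability certificate. -/
def chkSolv (C : Cert) : Bool :=
  pcOk C C.pc && C.gens.all fun γ =>
    wordIn C.pc γ.word && allBelow C.n fun j => Nat.beq (C.ap γ.g j) (C.evalW γ.word j)

theorem solvable_H (hC : C.Valid) (hS : C.chkSolv = true) : Group.IsSolvable C.H := by
  simp only [chkSolv, Bool.and_eq_true, List.all_eq_true, allBelow_iff, Nat.beq_eq] at hS
  obtain ⟨h1, h2⟩ := hS
  haveI := solvable_pc C h1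
  have hle : C.H ≤ Subgroup.closure (pcSet C C.pc) := by
    rw [H, Subgroup.closure_le]
    rintro σ ⟨γ, hγ, rfl⟩
    obtain ⟨h3, h4⟩ := h2 γ hγ
    obtain ⟨σ', hσ', hs⟩ := word_mem C (pcOk_pair C h1) h3
    have hE : C.rawPerm γ.g γ.g' = σ' := by
      ext j
      rw [hs j, ← h4 j j.2, C.sem_rawPerm (hC.pair γ hγ)]
    rw [SetLike.mem_coe, hE]
    exact hσ'
  exact Group.isSolvable_of_isSolvable_injective (Subgroup.inclusion_injective hle)

end Cert

/-! ### Products and counting -/

theorem card_pow_pi {ι : Type} [Fintype ι] (X : ι → Type) [∀ i, Group (X i)]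
    (d : ℕ) : Nat.card {x : ∀ i, X i // x ^ d = 1} = ∏ i, Nat.card {y : X i // y ^ d = 1} := by
  rw [← Nat.card_pi]
  apply Nat.card_congr
  have h : ∀ x : (∀ i, X i), x ^ d = 1 ↔ ∀ i, x i ^ d = 1 := by
    intro x
    rw [funext_iff]
    rfl
  exact (Equiv.subtypeEquivRight h).trans
    (Equiv.subtypePiEquivPi (β := X) (p := fun i y => y ^ d = 1))

theorem solvable_pi {ι : Type*} [Finite ι] (X : ι → Type*) [∀ i, Group (X i)]
    (h : ∀ i, Group.IsSolvable (X i)) : Group.IsSolvable (∀ i, X i) := by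
  classical
  haveI := Fintype.ofFinite ι
  have h' : ∀ i, ∃ n : ℕ, derivedSeries (X i) n = ⊥ := fun i => (h i).solvable
  choose n hn using h'
  refine ⟨⟨Finset.univ.sup n, ?_⟩⟩
  rw [eq_bot_iff]
  intro x hx
  rw [Subgroup.mem_bot]
  funext i
  have h1 : (Pi.evalMonoidHom X i) x ∈ (derivedSeries (∀ i, X i) (Finset.univ.sup n)).map
      (Pi.evalMonoidHom X i) := ⟨x, hx, rfl⟩
  have h2 := map_derivedSeries_le_derivedSeries (Pi.evalMonoidHom X i) _ h1
  have h3 := derivedSeries_antitone (X i) (Finset.le_sup (Finset.mem_univ i)) h2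
  rw [hn i, Subgroup.mem_bot] at h3
  exact h3

/-- The product of copies of the certified groups. -/
abbrev PiCert (l : List (Cert × ℕ)) : Type :=
  ∀ i : Fin l.length, Fin (l.get i).2 → (l.get i).1.H

/-- The number of solutions of `x ^ d = 1` in `PiCert l`. -/
def prodF : List (Cert × ℕ) → ℕ → ℕ
  | [], _ => 1
  | p :: l, d => Nat.mul (Nat.pow (p.1.F d) p.2) (prodF l d)

theorem prod_get_eq (l : List (Cert × ℕ)) (d : ℕ) :
    ∏ i : Fin l.length, ((l.get i).1.F d) ^ (l.get i).2 = prodF l d := by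
  induction l with
  | nil => simp [prodF]
  | cons p l ih =>
    rw [prodF, ← ih]
    exact Fin.prod_univ_succ (n := l.length)
      (fun i : Fin (l.length + 1) => ((p :: l).get i).1.F d ^ ((p :: l).get i).2)

theorem card_GL {l : List (Cert × ℕ)} (hl : ∀ p ∈ l, p.1.Valid) (d : ℕ) :
    Nat.card {x : PiCert l // x ^ d = 1} = prodF l d := by
  rw [← prod_get_eq]
  rw [card_pow_pi]
  refine Finset.prod_congr rfl fun i _ => ?_
  rw [card_pow_pi, Finset.prod_congr rfl (fun _ _ => Cert.card_pow_eq_one (hl _ (List.get_mem _ _)) d),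
    Finset.prod_const, Finset.card_univ, Fintype.card_fin]

theorem prodF_gcd {l : List (Cert × ℕ)} (hl : ∀ p ∈ l, p.1.Valid) (d : ℕ) :
    prodF l d = prodF l (Nat.gcd d 84) := by
  induction l with
  | nil => rfl
  | cons p l ih =>
    rw [prodF, prodF, ih (fun q hq => hl q (List.mem_cons_of_mem _ hq)),
      Cert.F_gcd (hl p List.mem_cons_self) d]

theorem solvable_GL {l : List (Cert × ℕ)} (hl : ∀ p ∈ l, Group.IsSolvable p.1.H) :
    Group.IsSolvable (PiCert l) :=
  solvable_pi _ fun i => solvable_pi _ fun _ => hl _ (List.get_mem _ _)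

/-- The number of solutions of `x ^ d = 1` in a finite group is the sum over the divisors. -/
theorem card_pow_eq_sum {G : Type} [Group G] [Finite G] {d : ℕ} (hd : 0 < d) :
    Nat.card {x : G // x ^ d = 1} = ∑ o ∈ d.divisors, Nat.card {x : G // orderOf x = o} := by
  classical
  haveI := Fintype.ofFinite G
  simp only [Nat.card_eq_fintype_card, Fintype.card_subtype]
  rw [Finset.card_eq_sum_card_fiberwise (f := orderOf) (t := d.divisors)]
  · refine Finset.sum_congr rfl fun o ho => ?_
    congr 1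
    ext x
    simp only [Finset.mem_filter, Finset.mem_univ, true_and]
    constructor
    · exact fun h => h.2
    · rintro rfl
      exact ⟨orderOf_dvd_iff_pow_eq_one.1 (Nat.dvd_of_mem_divisors ho), rfl⟩
  · intro x hx
    simp only [Finset.coe_filter, Finset.mem_univ, true_and, Set.mem_ofPred_eq] at hx
    exact Finset.mem_coe.2 (Nat.mem_divisors.2 ⟨orderOf_dvd_of_pow_eq_one hx, hd.ne'⟩)

/-- Equal numbers of solutions of `x ^ d = 1` for all `d` give the same order type. -/
theorem orderType_of_cnt {G H : Type} [Group G] [Group H] [Finite G] [Finite H]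
    (h : ∀ d, 0 < d → Nat.card {x : G // x ^ d = 1} = Nat.card {x : H // x ^ d = 1}) (n : ℕ) :
    Nat.card {g : G // orderOf g = n} = Nat.card {g : H // orderOf g = n} := by
  induction n using Nat.strong_induction_on with
  | _ n ih =>
    rcases Nat.eq_zero_or_pos n with rfl | hn
    · have e1 : IsEmpty {g : G // orderOf g = 0} :=
        ⟨fun x => (orderOf_pos x.1).ne' x.2⟩
      have e2 : IsEmpty {g : H // orderOf g = 0} :=
        ⟨fun x => (orderOf_pos x.1).ne' x.2⟩
      rw [Nat.card_of_isEmpty, Nat.card_of_isEmpty]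
    · have h1 := h n hn
      have hD : n.divisors = insert n n.properDivisors :=
        (Nat.insert_self_properDivisors hn.ne').symm
      rw [card_pow_eq_sum hn, card_pow_eq_sum hn, hD,
        Finset.sum_insert Nat.self_notMem_properDivisors,
        Finset.sum_insert Nat.self_notMem_properDivisors] at h1
      have h2 : ∑ o ∈ n.properDivisors, Nat.card {x : G // orderOf x = o} =
          ∑ o ∈ n.properDivisors, Nat.card {x : H // orderOf x = o} :=
        Finset.sum_congr rfl fun o ho => ih o (Nat.mem_properDivisors.1 ho).2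
      omega

/-- The final assembly: the certificates and a numerical check give the statement. -/
theorem main (L₁ L₂ : List (Cert × ℕ)) (P : Cert)
    (hL₁ : ∀ p ∈ L₁, p.1.check = true ∧ p.1.chkSolv = true)
    (hL₂ : ∀ p ∈ L₂, p.1.check = true)
    (hP : P.check = true) (hP2 : P.chkPerfect = true) (hN : 2 ≤ P.N)
    (hEq : allBelow 85 (fun g => !(Nat.beq (Nat.mod 84 g) 0) ||
      Nat.beq (prodF L₁ g) (Nat.mul (P.F g) (prodF L₂ g))) = true) :
    ∃ (G : Type) (_ : Group G) (_ : Finite G) (H : Type) (_ : Group H) (_ : Finite H),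
      Group.IsSolvable G ∧ ¬ Group.IsSolvable H ∧
        ∀ n : ℕ, Nat.card {g : G // orderOf g = n} = Nat.card {h : H // orderOf h = n} := by
  have v1 : ∀ p ∈ L₁, p.1.Valid := fun p hp => Cert.valid_of_check (hL₁ p hp).1
  have v2 : ∀ p ∈ L₂, p.1.Valid := fun p hp => Cert.valid_of_check (hL₂ p hp)
  have vP : P.Valid := Cert.valid_of_check hP
  refine ⟨PiCert L₁, inferInstance, inferInstance, P.H × PiCert L₂, inferInstance, inferInstance, ?_, ?_, ?_⟩
  · exact solvable_GL fun p hp => Cert.solvable_H (v1 p hp) (hL₁ p hp).2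
  · intro hS
    exact Cert.not_solvable vP hP2 hN
      (Group.isSolvable_of_surjective (f := MonoidHom.fst P.H (PiCert L₂)) Prod.fst_surjective)
  · apply orderType_of_cnt
    intro d hd
    have hc : Nat.card {x : P.H × PiCert L₂ // x ^ d = 1} =
        Nat.card {x : P.H // x ^ d = 1} * Nat.card {x : PiCert L₂ // x ^ d = 1} := by
      rw [← Nat.card_prod]
      apply Nat.card_congr
      refine ⟨fun x => (⟨x.1.1, congrArg Prod.fst x.2⟩, ⟨x.1.2, congrArg Prod.snd x.2⟩),
        fun y => ⟨(y.1.1, y.2.1), Prod.ext y.1.2 y.2.2⟩, fun x => rfl, fun y => rfl⟩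
    rw [hc, card_GL v1, card_GL v2, Cert.card_pow_eq_one vP, prodF_gcd v1, prodF_gcd v2,
      Cert.F_gcd vP]
    have hg1 : Nat.gcd d 84 ∣ 84 := Nat.gcd_dvd_right _ _
    have hg2 : Nat.gcd d 84 < 85 := Nat.lt_succ_of_le (Nat.le_of_dvd (by norm_num) hg1)
    have := allBelow_iff.1 hEq _ hg2
    simp only [Bool.or_eq_true, Bool.not_eq_true', Nat.beq_eq] at this
    rcases this with h | h
    · have h' : Nat.beq (84 % Nat.gcd d 84) 0 = true := by
        rw [Nat.beq_eq]
        exact Nat.mod_eq_zero_of_dvd hg1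
      have h'' : Nat.beq (Nat.mod 84 (Nat.gcd d 84)) 0 = true := h'
      rw [h''] at h
      exact absurd h (by decide)
    · rw [h]
      rfl

end Cfsg.Agent.Lib.OrderType.Basic
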